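import Cfsg.Agent.Lib.Helper75.LW.Defs

/-!
# LW (S0746) package [ABS1B], plus the shared helper `fix_two`
-/

set_option autoImplicit false

namespace Cfsg.Agent.Lib.Helper84.LW

open Cfsg.Agent.Lib.Helper75.LW

universe u

/-- if the centraliser of `b` in `F` has two elements, it is `{1, z}` with `z` an involution -/
theorem fix_two {Γ : Type u} [Group Γ] (F : Subgroup Γ) (b : Γ)
    (hC : Nat.card {f : F // b * (f : Γ) * b⁻¹ = f} = 2) :
    ∃ z ∈ F, z ≠ 1 ∧ b * z * b⁻¹ = z ∧ z * z = 1 ∧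
      ∀ f ∈ F, b * f * b⁻¹ = f → f = 1 ∨ f = z := by
  obtain ⟨z, hz1, hzu⟩ :=
    (Nat.card_eq_two_iff' (⟨1, by simp⟩ : {f : F // b * (f : Γ) * b⁻¹ = f})).mp hC
  have hzne : ((z : F) : Γ) ≠ 1 := by
    intro h
    apply hz1
    apply Subtype.ext
    apply Subtype.ext
    simpa using h
  have hall : ∀ f ∈ F, b * f * b⁻¹ = f → f = 1 ∨ f = ((z : F) : Γ) := by
    intro f hf hff
    by_cases h1 : f = 1
    · exact Or.inl h1
    · right
      have hne : (⟨⟨f, hf⟩, hff⟩ : {f : F // b * (f : Γ) * b⁻¹ = f}) ≠ ⟨1, by simp⟩ := by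
        intro h
        apply h1
        have := congrArg (fun s : {f : F // b * (f : Γ) * b⁻¹ = f} => ((s : F) : Γ)) h
        simpa using this
      have := hzu _ hne
      rw [← this]
  refine ⟨((z : F) : Γ), (z : F).2, hzne, z.2, ?_, hall⟩
  have hzz : b * (((z : F) : Γ) * ((z : F) : Γ)) * b⁻¹ = ((z : F) : Γ) * ((z : F) : Γ) := by
    have h := z.2
    calc b * (((z : F) : Γ) * ((z : F) : Γ)) * b⁻¹
        = (b * ((z : F) : Γ) * b⁻¹) * (b * ((z : F) : Γ) * b⁻¹) := by group
      _ = ((z : F) : Γ) * ((z : F) : Γ) := by rw [h]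
  rcases hall _ (F.mul_mem (z : F).2 (z : F).2) hzz with h | h
  · exact h
  · exfalso
    apply hzne
    have : ((z : F) : Γ) * ((z : F) : Γ) = ((z : F) : Γ) * 1 := by rw [mul_one]; exact h
    exact mul_left_cancel this

/-- elements of square one commute when their product has square one -/
theorem comm_of_sq {Γ : Type u} [Group Γ] (P : Subgroup Γ) (hPel : ∀ e ∈ P, e * e = 1) :
    ∀ x ∈ P, ∀ y ∈ P, x * y = y * x := by
  intro x hx y hy
  have h1 := hPel x hx
  have h2 := hPel y hy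
  have h3 := hPel (x * y) (P.mul_mem hx hy)
  have hx' : x⁻¹ = x := inv_eq_of_mul_eq_one_left h1
  have hy' : y⁻¹ = y := inv_eq_of_mul_eq_one_left h2
  calc x * y = (x * y)⁻¹ := (inv_eq_of_mul_eq_one_left h3).symm
    _ = y⁻¹ * x⁻¹ := mul_inv_rev x y
    _ = y * x := by rw [hx', hy']

theorem pkgAbs1b : PkgAbs1b.{u} := by
  intro Γ _ F P b hPF hP4 hPel hinv hb2 hbF hbP hC f hf he
  obtain ⟨z, hzF, hz1, hzfix, hzz, hzall⟩ := fix_two F b hC
  have hzP : z ∈ P := hinv z hzF hzz
  have hbinv : b⁻¹ = b := inv_eq_of_mul_eq_one_left hb2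
  have hcomm := comm_of_sq P hPel
  have hconj : ∀ x y : Γ, b * (x * y) * b⁻¹ = (b * x * b⁻¹) * (b * y * b⁻¹) := by
    intro x y; group
  have hconj2 : ∀ x : Γ, b * (b * x * b⁻¹) * b⁻¹ = x := by
    intro x
    rw [hbinv]
    calc b * (b * x * b) * b = (b * b) * x * (b * b) := by group
      _ = x := by rw [hb2]; simp
  obtain ⟨e, he_def⟩ : ∃ e, e = f⁻¹ * (b * f * b⁻¹) := ⟨_, rfl⟩
  rw [← he_def] at he
  have hbf : b * f * b⁻¹ = f * e := by rw [he_def]; group
  have hee : e * e = 1 := hPel e he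
  have hbe : b * e * b⁻¹ = e := by
    have h1 : f = f * e * (b * e * b⁻¹) := by
      calc f = b * (b * f * b⁻¹) * b⁻¹ := (hconj2 f).symm
        _ = b * (f * e) * b⁻¹ := by rw [hbf]
        _ = (b * f * b⁻¹) * (b * e * b⁻¹) := hconj f e
        _ = f * e * (b * e * b⁻¹) := by rw [hbf]
    have h2 : e * (b * e * b⁻¹) = 1 := by
      have : f * (e * (b * e * b⁻¹)) = f * 1 := by rw [mul_one, ← mul_assoc]; exact h1.symm
      exact mul_left_cancel this
    have h3 : e⁻¹ = b * e * b⁻¹ := inv_eq_of_mul_eq_one_right h2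
    rw [← h3]; exact inv_eq_of_mul_eq_one_left hee
  rcases hzall e (hPF he) hbe with h1 | hz
  · have : b * f * b⁻¹ = f := by rw [hbf, h1, mul_one]
    rcases hzall f hf this with h | h
    · rw [h]; exact P.one_mem
    · rw [h]; exact hzP
  · obtain ⟨w, hwP, hw1, hwz⟩ : ∃ w ∈ P, w ≠ 1 ∧ w ≠ z := by
      by_contra hcon
      push_neg at hcon
      have hsub : (P : Set Γ) ⊆ {1, z} := by
        intro x hx
        by_cases hx1 : x = 1
        · left; exact hx1
        · right; exact hcon x hx hx1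
      have h2 : (P : Set Γ).ncard ≤ 2 := by
        calc (P : Set Γ).ncard ≤ ({1, z} : Set Γ).ncard :=
              Set.ncard_le_ncard hsub (Set.toFinite _)
          _ = 2 := Set.ncard_pair (Ne.symm hz1)
      have h4 : (P : Set Γ).ncard = 4 := (Nat.card_coe_set_eq (P : Set Γ)).symm.trans hP4
      omega
    have hbw : b * w * b⁻¹ ∈ P := hbP w hwP
    have hww : w * w = 1 := hPel w hwP
    obtain ⟨g, hg_def⟩ : ∃ g, g = w * (b * w * b⁻¹) := ⟨_, rfl⟩
    have hgP : g ∈ P := by rw [hg_def]; exact P.mul_mem hwP hbw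
    have hgfix : b * g * b⁻¹ = g := by
      rw [hg_def, hconj, hconj2]
      exact hcomm _ hbw _ hwP
    have hgz : g = z := by
      rcases hzall g (hPF hgP) hgfix with h | h
      · exfalso
        have h3 : b * w * b⁻¹ = w := by
          have h5 : w * (b * w * b⁻¹) = 1 := by rw [← hg_def]; exact h
          have : w⁻¹ = b * w * b⁻¹ := inv_eq_of_mul_eq_one_right h5
          rw [← this]; exact inv_eq_of_mul_eq_one_left hww
        rcases hzall w (hPF hwP) h3 with h' | h'
        · exact hw1 h'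
        · exact hwz h'
      · exact h
    have hbw' : b * w * b⁻¹ = w * z := by
      have : w * (w * (b * w * b⁻¹)) = w * z := by rw [← hg_def, hgz]
      rw [← mul_assoc, hww, one_mul] at this
      exact this
    have hfw : b * (f * w) * b⁻¹ = f * w := by
      rw [hconj, hbf, hz, hbw']
      have : z * (w * z) = w := by
        rw [hcomm w hwP z hzP, ← mul_assoc, hzz, one_mul]
      rw [mul_assoc, this]
    rcases hzall (f * w) (F.mul_mem hf (hPF hwP)) hfw with h | h
    · have : f = w⁻¹ := eq_inv_of_mul_eq_one_left h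
      rw [this]; exact P.inv_mem hwP
    · have : f = z * w⁻¹ := eq_mul_inv_of_mul_eq h
      rw [this]; exact P.mul_mem hzP (P.inv_mem hwP)

end Cfsg.Agent.Lib.Helper84.LW
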