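import Cfsg.Agent.Lib.Helper75.LW.Defs
import Cfsg.Agent.Lib.Helper84.LW.Abs1b

/-!
# LW (S0746) package [ABS1A]
-/

set_option autoImplicit false

namespace Cfsg.Agent.Lib.Helper84.LW

open Cfsg.Agent.Lib.Helper75.LW

universe u

/-- a set all of whose elements occur in a list has at most `length` elements -/
theorem card_le_of_list {Γ : Type u} (S : Set Γ) (l : List Γ) (h : ∀ x ∈ S, x ∈ l) :
    Nat.card S ≤ l.length := by
  classical
  rw [Nat.card_coe_set_eq]
  calc S.ncard ≤ ((l.toFinset : Finset Γ) : Set Γ).ncard :=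
        Set.ncard_le_ncard (fun x hx => by simpa using h x hx) (Finset.finite_toSet _)
    _ = l.toFinset.card := Set.ncard_coe_finset _
    _ ≤ l.length := List.toFinset_card_le l

/-- the core of [ABS1B], with the centraliser given explicitly -/
theorem abs1b_core {Γ : Type u} [Group Γ] (F P : Subgroup Γ) (b z : Γ)
    (hPF : P ≤ F) (hP4 : Nat.card P = 4) (hPel : ∀ e ∈ P, e * e = 1)
    (hb2 : b * b = 1) (hbP : ∀ e ∈ P, b * e * b⁻¹ ∈ P)
    (hz1 : z ≠ 1) (hzz : z * z = 1) (hzP : z ∈ P)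
    (hzall : ∀ f ∈ F, b * f * b⁻¹ = f → f = 1 ∨ f = z) :
    ∀ f ∈ F, f⁻¹ * (b * f * b⁻¹) ∈ P → f ∈ P := by
  intro f hf he
  have hbinv : b⁻¹ = b := inv_eq_of_mul_eq_one_left hb2
  have hcomm := comm_of_sq P hPel
  have hconj : ∀ x y : Γ, b * (x * y) * b⁻¹ = (b * x * b⁻¹) * (b * y * b⁻¹) := by
    intro x y; group
  have hconj2 : ∀ x : Γ, b * (b * x * b⁻¹) * b⁻¹ = x := by
    intro x
    rw [hbinv]
    calc b * (b * x * b) * b = (b * b) * x * (b * b) := by group
      _ = x := by rw [hb2]; simp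
  obtain ⟨e, he_def⟩ : ∃ e, e = f⁻¹ * (b * f * b⁻¹) := ⟨_, rfl⟩
  rw [← he_def] at he
  have hbf : b * f * b⁻¹ = f * e := by rw [he_def]; group
  have hee : e * e = 1 := hPel e he
  have hbe : b * e * b⁻¹ = e := by
    have h1 : f = f * e * (b * e * b⁻¹) := by
      calc f = b * (b * f * b⁻¹) * b⁻¹ := (hconj2 f).symm
        _ = b * (f * e) * b⁻¹ := by rw [hbf]
        _ = (b * f * b⁻¹) * (b * e * b⁻¹) := hconj f e
        _ = f * e * (b * e * b⁻¹) := by rw [hbf]
    have h2 : e * (b * e * b⁻¹) = 1 := by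
      have : f * (e * (b * e * b⁻¹)) = f * 1 := by rw [mul_one, ← mul_assoc]; exact h1.symm
      exact mul_left_cancel this
    have h3 : e⁻¹ = b * e * b⁻¹ := inv_eq_of_mul_eq_one_right h2
    rw [← h3]; exact inv_eq_of_mul_eq_one_left hee
  rcases hzall e (hPF he) hbe with h1 | hz
  · have : b * f * b⁻¹ = f := by rw [hbf, h1, mul_one]
    rcases hzall f hf this with h | h
    · rw [h]; exact P.one_mem
    · rw [h]; exact hzP
  · obtain ⟨w, hwP, hw1, hwz⟩ : ∃ w ∈ P, w ≠ 1 ∧ w ≠ z := by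
      by_contra hcon
      push_neg at hcon
      have h2 : Nat.card P ≤ [1, z].length := by
        refine card_le_of_list (P : Set Γ) [1, z] ?_
        intro x hx
        by_cases hx1 : x = 1
        · simp [hx1]
        · simp [hcon x hx hx1]
      have h3 : [1, z].length = 2 := rfl
      omega
    have hbw : b * w * b⁻¹ ∈ P := hbP w hwP
    have hww : w * w = 1 := hPel w hwP
    obtain ⟨g, hg_def⟩ : ∃ g, g = w * (b * w * b⁻¹) := ⟨_, rfl⟩
    have hgP : g ∈ P := by rw [hg_def]; exact P.mul_mem hwP hbw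
    have hgfix : b * g * b⁻¹ = g := by
      rw [hg_def, hconj, hconj2]
      exact hcomm _ hbw _ hwP
    have hgz : g = z := by
      rcases hzall g (hPF hgP) hgfix with h | h
      · exfalso
        have h3 : b * w * b⁻¹ = w := by
          have h5 : w * (b * w * b⁻¹) = 1 := by rw [← hg_def]; exact h
          have : w⁻¹ = b * w * b⁻¹ := inv_eq_of_mul_eq_one_right h5
          rw [← this]; exact inv_eq_of_mul_eq_one_left hww
        rcases hzall w (hPF hwP) h3 with h' | h'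
        · exact hw1 h'
        · exact hwz h'
      · exact h
    have hbw' : b * w * b⁻¹ = w * z := by
      have : w * (w * (b * w * b⁻¹)) = w * z := by rw [← hg_def, hgz]
      rw [← mul_assoc, hww, one_mul] at this
      exact this
    have hfw : b * (f * w) * b⁻¹ = f * w := by
      rw [hconj, hbf, hz, hbw']
      have : z * (w * z) = w := by
        rw [hcomm w hwP z hzP, ← mul_assoc, hzz, one_mul]
      rw [mul_assoc, this]
    rcases hzall (f * w) (F.mul_mem hf (hPF hwP)) hfw with h | h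
    · have : f = w⁻¹ := eq_inv_of_mul_eq_one_left h
      rw [this]; exact P.inv_mem hwP
    · have : f = z * w⁻¹ := eq_mul_inv_of_mul_eq h
      rw [this]; exact P.mul_mem hzP (P.inv_mem hwP)

/-- the Sylow `2`-subgroup of a finite nilpotent subgroup, as a subgroup of the ambient group -/
theorem sylow2 {Γ : Type u} [Group Γ] (F : Subgroup Γ) [Finite F]
    (hnil : Group.IsNilpotent ↥F) :
    ∃ P₀ : Subgroup Γ, P₀ ≤ F ∧ (∀ x ∈ F, (∃ n : ℕ, x ^ 2 ^ n = 1) → x ∈ P₀) ∧
      (∀ x ∈ P₀, ∃ n : ℕ, x ^ 2 ^ n = 1) ∧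
      IsPGroup 2 ↥P₀ ∧ Nat.card P₀ = 2 ^ (Nat.card F).factorization 2 := by
  haveI : Fact (Nat.Prime 2) := ⟨Nat.prime_two⟩
  obtain ⟨S⟩ : Nonempty (Sylow 2 ↥F) := inferInstance
  haveI hSn : (S : Subgroup ↥F).Normal := inferInstance
  have hmapp : IsPGroup 2 ↥((S : Subgroup ↥F).map F.subtype) := S.isPGroup'.map F.subtype
  refine ⟨(S : Subgroup ↥F).map F.subtype, ?_, ?_, ?_, hmapp, ?_⟩
  · intro x hx
    obtain ⟨y, _, rfl⟩ := Subgroup.mem_map.mp hx
    exact y.2
  · rintro x hx ⟨n, hn⟩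
    refine Subgroup.mem_map.mpr ⟨⟨x, hx⟩, ?_, rfl⟩
    have hy : (⟨x, hx⟩ : F) ^ 2 ^ n = 1 := Subtype.ext (by simpa using hn)
    have hp : IsPGroup 2 (Subgroup.zpowers (⟨x, hx⟩ : F)) := by
      rintro ⟨g, hg⟩
      obtain ⟨k, rfl⟩ := Subgroup.mem_zpowers_iff.mp hg
      refine ⟨n, Subtype.ext ?_⟩
      simp only [Subgroup.coe_pow, Subgroup.coe_one]
      rw [← zpow_natCast, ← zpow_mul, mul_comm, zpow_mul, zpow_natCast, hy, one_zpow]
    have h2 : IsPGroup 2 (↥((Subgroup.zpowers (⟨x, hx⟩ : F)) ⊔ (S : Subgroup F))) :=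
      IsPGroup.to_sup_of_normal_right hp S.isPGroup'
    have h3 := S.is_maximal' h2 le_sup_right
    have h4 : Subgroup.zpowers (⟨x, hx⟩ : F) ≤ (S : Subgroup F) := by
      rw [← h3]; exact le_sup_left
    exact h4 (Subgroup.mem_zpowers _)
  · intro x hx
    obtain ⟨k, hk⟩ := hmapp ⟨x, hx⟩
    refine ⟨k, ?_⟩
    have := congrArg Subtype.val hk
    simpa using this
  · rw [Subgroup.card_subtype]
    exact S.card_eq_multiplicity

/-- the elements of square one in the centre of `P` -/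
def omegaZ {Γ : Type u} [Group Γ] (P : Subgroup Γ) : Subgroup Γ where
  carrier := {e | e ∈ P ∧ e * e = 1 ∧ ∀ x ∈ P, e * x = x * e}
  mul_mem' := by
    rintro e e' ⟨h1, h2, h3⟩ ⟨h1', h2', h3'⟩
    refine ⟨P.mul_mem h1 h1', ?_, ?_⟩
    · calc e * e' * (e * e') = e * (e' * e) * e' := by group
        _ = e * (e * e') * e' := by rw [h3' e h1]
        _ = (e * e) * (e' * e') := by group
        _ = 1 := by rw [h2, h2', one_mul]
    · intro x hx
      calc e * e' * x = e * (e' * x) := mul_assoc _ _ _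
        _ = e * (x * e') := by rw [h3' x hx]
        _ = (e * x) * e' := (mul_assoc _ _ _).symm
        _ = (x * e) * e' := by rw [h3 x hx]
        _ = x * (e * e') := mul_assoc _ _ _
  one_mem' := ⟨P.one_mem, by simp, by intro x _; simp⟩
  inv_mem' := by
    rintro e ⟨h1, h2, h3⟩
    have : e⁻¹ = e := inv_eq_of_mul_eq_one_left h2
    rw [this]
    exact ⟨h1, h2, h3⟩

theorem mem_omegaZ {Γ : Type u} [Group Γ] (P : Subgroup Γ) (e : Γ) :
    e ∈ omegaZ P ↔ e ∈ P ∧ e * e = 1 ∧ ∀ x ∈ P, e * x = x * e := Iff.rfl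

theorem pkgAbs1a : PkgAbs1a.{u} := by
  intro Γ _ F K _ _ a hnil hodd hK1 hKF hKfree ha2 haF hC
  classical
  obtain ⟨z, hzF, hz1, hzfix, hzz, hzall⟩ := fix_two F a hC
  obtain ⟨P₀, hP0F, hP0all, hP0pow, hP0p, hP0card⟩ := sylow2 F hnil
  haveI : Finite ↥P₀ := Finite.of_injective (fun x : P₀ => (⟨x.1, hP0F x.2⟩ : F))
    (fun x y h => Subtype.ext (by simpa using congrArg Subtype.val h))
  have hainv : a⁻¹ = a := inv_eq_of_mul_eq_one_left ha2
  have hzP0 : z ∈ P₀ := hP0all z hzF ⟨1, by rw [pow_one, pow_two]; exact hzz⟩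
  have hP0conj : ∀ g : Γ, (∀ f ∈ F, g * f * g⁻¹ ∈ F) → ∀ e ∈ P₀, g * e * g⁻¹ ∈ P₀ := by
    intro g hg e he
    obtain ⟨n, hn⟩ := hP0pow e he
    exact hP0all _ (hg e (hP0F he)) ⟨n, by rw [conj_pow, hn, mul_one, mul_inv_cancel]⟩
  obtain ⟨E, hE_def⟩ : ∃ E : Subgroup Γ, E = omegaZ P₀ := ⟨_, rfl⟩
  have hEmem : ∀ e, e ∈ E ↔ e ∈ P₀ ∧ e * e = 1 ∧ ∀ x ∈ P₀, e * x = x * e := by
    intro e; rw [hE_def]; exact mem_omegaZ P₀ e
  have hEP0 : E ≤ P₀ := fun e he => ((hEmem e).mp he).1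
  have hEF : E ≤ F := hEP0.trans hP0F
  have hEel : ∀ e ∈ E, e * e = 1 := fun e he => ((hEmem e).mp he).2.1
  have hEcomm := comm_of_sq E hEel
  haveI : Finite ↥E := Finite.of_injective (fun x : E => (⟨x.1, hEF x.2⟩ : F))
    (fun x y h => Subtype.ext (by simpa using congrArg Subtype.val h))
  have hEconj : ∀ g : Γ, (∀ f ∈ F, g * f * g⁻¹ ∈ F) → (∀ f ∈ F, g⁻¹ * f * g ∈ F) →
      ∀ e ∈ E, g * e * g⁻¹ ∈ E := by
    intro g hg hg' e he
    have he' := (hEmem e).mp he
    refine (hEmem _).mpr ⟨hP0conj g hg e he'.1, ?_, ?_⟩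
    · calc g * e * g⁻¹ * (g * e * g⁻¹) = g * (e * e) * g⁻¹ := by group
        _ = 1 := by rw [he'.2.1]; group
    · intro x hx
      have hy : g⁻¹ * x * g ∈ P₀ := by
        have := hP0conj g⁻¹ (by intro f hf; rw [inv_inv]; exact hg' f hf) x hx
        rwa [inv_inv] at this
      have h := he'.2.2 _ hy
      calc g * e * g⁻¹ * x = g * (e * (g⁻¹ * x * g)) * g⁻¹ := by group
        _ = g * ((g⁻¹ * x * g) * e) * g⁻¹ := by rw [h]
        _ = x * (g * e * g⁻¹) := by group
  have haE : ∀ e ∈ E, a * e * a⁻¹ ∈ E :=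
    hEconj a haF (by intro f hf; have := haF f hf; rw [hainv] at this ⊢; exact this)
  have hKE : ∀ κ ∈ K, ∀ e ∈ E, κ * e * κ⁻¹ ∈ E := by
    intro κ hκ
    exact hEconj κ (hKF κ hκ)
      (by intro f hf; have := hKF κ⁻¹ (K.inv_mem hκ) f hf; rwa [inv_inv] at this)
  have hconj : ∀ x y : Γ, a * (x * y) * a⁻¹ = (a * x * a⁻¹) * (a * y * a⁻¹) := by
    intro x y; group
  have hconj2 : ∀ x : Γ, a * (a * x * a⁻¹) * a⁻¹ = x := by
    intro x; rw [hainv]
    calc a * (a * x * a) * a = (a * a) * x * (a * a) := by group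
      _ = x := by rw [ha2]; simp
  -- `E` is nontrivial
  obtain ⟨e₀, he₀E, he₀1⟩ : ∃ e₀ ∈ E, e₀ ≠ 1 := by
    haveI : Nontrivial ↥P₀ :=
      ⟨⟨⟨z, hzP0⟩, 1, fun h => hz1 (by simpa using congrArg Subtype.val h)⟩⟩
    haveI : Fact (Nat.Prime 2) := ⟨Nat.prime_two⟩
    haveI := hP0p.center_nontrivial
    have hcp : IsPGroup 2 ↥(Subgroup.center ↥P₀) := hP0p.to_subgroup _
    have h2 : 2 ∣ Nat.card ↥(Subgroup.center ↥P₀) := by
      rcases hcp.card_eq_or_dvd with h | h
      · exfalso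
        have := Finite.one_lt_card (α := ↥(Subgroup.center ↥P₀))
        omega
      · exact h
    obtain ⟨c, hc⟩ := exists_prime_orderOf_dvd_card' 2 h2
    refine ⟨((c : ↥P₀) : Γ), (hEmem _).mpr ⟨(c : ↥P₀).2, ?_, ?_⟩, ?_⟩
    · have h3 : c ^ 2 = 1 := by rw [← hc]; exact pow_orderOf_eq_one c
      have h4 : (((c ^ 2 : Subgroup.center ↥P₀) : ↥P₀) : Γ) = 1 := by rw [h3]; rfl
      simpa [pow_two] using h4
    · intro x hx
      have h3 := Subgroup.mem_center_iff.mp c.2 ⟨x, hx⟩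
      have h4 := congrArg Subtype.val h3
      simpa using h4.symm
    · intro h
      have h3 : c = 1 := Subtype.ext (Subtype.ext (by simpa using h))
      rw [h3, orderOf_one] at hc
      omega
  -- the orbit of `e₀` under `K`
  have hcardK : Nat.card K + 1 ≤ Nat.card E := by
    rw [← Finite.card_option]
    refine Nat.card_le_card_of_injective (fun o : Option K => match o with
      | none => (1 : E)
      | some κ => ⟨κ.1 * e₀ * κ.1⁻¹, hKE κ.1 κ.2 e₀ he₀E⟩) ?_
    intro o o' h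
    rcases o with _ | κ <;> rcases o' with _ | κ'
    · rfl
    · exfalso
      have h'' : (1 : Γ) = κ'.1 * e₀ * κ'.1⁻¹ := congrArg Subtype.val h
      apply he₀1
      calc e₀ = κ'.1⁻¹ * (κ'.1 * e₀ * κ'.1⁻¹) * κ'.1 := by group
        _ = 1 := by rw [← h'']; group
    · exfalso
      have h'' : κ.1 * e₀ * κ.1⁻¹ = (1 : Γ) := congrArg Subtype.val h
      apply he₀1
      calc e₀ = κ.1⁻¹ * (κ.1 * e₀ * κ.1⁻¹) * κ.1 := by group
        _ = 1 := by rw [h'']; group
    · congr 1
      have h' : κ.1 * e₀ * κ.1⁻¹ = κ'.1 * e₀ * κ'.1⁻¹ := congrArg Subtype.val h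
      by_contra hne
      have hne' : κ'.1⁻¹ * κ.1 ≠ 1 := by
        intro h1
        apply hne
        apply Subtype.ext
        calc κ.1 = κ'.1 * (κ'.1⁻¹ * κ.1) := by group
          _ = κ'.1 := by rw [h1, mul_one]
      apply he₀1
      apply hKfree (κ'.1⁻¹ * κ.1) (K.mul_mem (K.inv_mem κ'.2) κ.2) hne' e₀ (hEF he₀E)
      calc κ'.1⁻¹ * κ.1 * e₀ * (κ'.1⁻¹ * κ.1)⁻¹
          = κ'.1⁻¹ * (κ.1 * e₀ * κ.1⁻¹) * κ'.1 := by group
        _ = κ'.1⁻¹ * (κ'.1 * e₀ * κ'.1⁻¹) * κ'.1 := by rw [h']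
        _ = e₀ := by group
  have hA : ∀ e ∈ E, e = 1 ∨ e = z ∨ a * e * a⁻¹ = e * z := by
    intro e he
    have hae := haE e he
    have ht : a * (e * (a * e * a⁻¹)) * a⁻¹ = e * (a * e * a⁻¹) := by
      rw [hconj, hconj2]; exact hEcomm _ hae _ he
    have hee := hEel e he
    have heinv : e⁻¹ = e := inv_eq_of_mul_eq_one_left hee
    rcases hzall _ (F.mul_mem (hEF he) (hEF hae)) ht with h | h
    · have h1 : a * e * a⁻¹ = e := by
        have : e⁻¹ = a * e * a⁻¹ := inv_eq_of_mul_eq_one_right h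
        rw [← this]; exact heinv
      rcases hzall e (hEF he) h1 with h' | h'
      · exact Or.inl h'
      · exact Or.inr (Or.inl h')
    · right; right
      calc a * e * a⁻¹ = e⁻¹ * (e * (a * e * a⁻¹)) := by group
        _ = e * z := by rw [h, heinv]
  have hzE : z ∈ E := by
    rcases hA e₀ he₀E with h | h | h
    · exact absurd h he₀1
    · rw [← h]; exact he₀E
    · have : z = e₀⁻¹ * (a * e₀ * a⁻¹) := by rw [h]; group
      rw [this]; exact E.mul_mem (E.inv_mem he₀E) (haE e₀ he₀E)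
  have hB : ∀ e ∈ E, ∀ e' ∈ E, a * e * a⁻¹ = e * z → a * e' * a⁻¹ = e' * z →
      e' = e ∨ e' = e * z := by
    intro e he e' he' h h'
    have hfix : a * (e * e') * a⁻¹ = e * e' := by
      rw [hconj, h, h']
      calc e * z * (e' * z) = e * (z * e') * z := by group
        _ = e * (e' * z) * z := by rw [hEcomm z hzE e' he']
        _ = e * e' * (z * z) := by group
        _ = e * e' := by rw [hzz, mul_one]
    have heinv : e⁻¹ = e := inv_eq_of_mul_eq_one_left (hEel e he)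
    rcases hzall _ (F.mul_mem (hEF he) (hEF he')) hfix with h1 | h1
    · left
      calc e' = e⁻¹ * (e * e') := by group
        _ = e := by rw [h1, mul_one, heinv]
    · right
      calc e' = e⁻¹ * (e * e') := by group
        _ = e * z := by rw [h1, heinv]
  have hK2 : 2 ≤ Nat.card K := by
    have h1 : Nat.card K ≠ 1 := fun h => hK1 (Subgroup.eq_bot_of_card_eq K h)
    have h0 : 0 < Nat.card K := Nat.card_pos
    omega
  obtain ⟨w, hwE, hw⟩ : ∃ w ∈ E, a * w * a⁻¹ = w * z := by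
    by_contra hcon
    push_neg at hcon
    have h2 : Nat.card E ≤ [1, z].length := by
      refine card_le_of_list (E : Set Γ) [1, z] ?_
      intro x hx
      rcases hA x hx with h | h | h
      · simp [h]
      · simp [h]
      · exact absurd h (hcon x hx)
    have h3 : [1, z].length = 2 := rfl
    omega
  have hE4 : Nat.card E ≤ 4 := by
    have h2 : Nat.card E ≤ [1, z, w, w * z].length := by
      refine card_le_of_list (E : Set Γ) [1, z, w, w * z] ?_
      intro x hx
      rcases hA x hx with h | h | h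
      · simp [h]
      · simp [h]
      · rcases hB w hwE x hx hw h with h' | h'
        · simp [h']
        · simp [h']
    have h3 : [1, z, w, w * z].length = 4 := rfl
    omega
  have hK3 : Nat.card K = 3 := by
    rcases hodd with ⟨m, hm⟩
    omega
  have hE4' : Nat.card E = 4 := by omega
  -- the claim `P₀ ≤ E`
  have hclaim : ∀ x ∈ P₀, x ∈ E := by
    have hcore := abs1b_core F E a z hEF hE4' hEel ha2 haE hz1 hzz hzE hzall
    obtain ⟨E', hE'_def⟩ : ∃ E' : Subgroup ↥P₀, E' = E.subgroupOf P₀ := ⟨_, rfl⟩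
    have hE'mem : ∀ x : ↥P₀, x ∈ E' ↔ (x : Γ) ∈ E := by
      intro x; rw [hE'_def]; exact Subgroup.mem_subgroupOf
    let c : ↥P₀ → ↥P₀ := fun x => ⟨a * x.1 * a⁻¹, hP0conj a haF x.1 x.2⟩
    have hc : ∀ x y : ↥P₀, QuotientGroup.leftRel E' x y → QuotientGroup.leftRel E' (c x) (c y) := by
      intro x y hxy
      rw [QuotientGroup.leftRel_apply] at hxy ⊢
      rw [hE'mem] at hxy ⊢
      have h1 := haE _ hxy
      have h2 : (((c x)⁻¹ * c y : ↥P₀) : Γ) = a * ((x⁻¹ * y : ↥P₀) : Γ) * a⁻¹ := by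
        simp only [c, Subgroup.coe_mul, Subgroup.coe_inv]
        group
      rw [h2]; exact h1
    let f : Function.End (↥P₀ ⧸ E') := Quotient.map' c hc
    haveI : Fintype (↥P₀ ⧸ E') := Fintype.ofFinite _
    haveI : Fact (Nat.Prime 2) := ⟨Nat.prime_two⟩
    have hf : f ^ 2 ^ 1 = 1 := by
      funext q
      induction q using Quotient.inductionOn' with
      | _ x =>
        show f (f (Quotient.mk'' x)) = Quotient.mk'' x
        show Quotient.mk'' (c (c x)) = Quotient.mk'' x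
        congr 1
        apply Subtype.ext
        exact hconj2 x.1
    have hmod := Equiv.Perm.card_fixedPoints_modEq (p := 2) (n := 1) hf
    have hfix1 : ∀ q : ↥P₀ ⧸ E', f q = q → q = Quotient.mk'' 1 := by
      intro q
      induction q using Quotient.inductionOn' with
      | _ x =>
        intro hq
        have hq' : (Quotient.mk'' x : ↥P₀ ⧸ E') = Quotient.mk'' (c x) := hq.symm
        rw [Quotient.eq'', QuotientGroup.leftRel_apply, hE'mem] at hq'
        have hxE : x.1 ∈ E := hcore x.1 (hP0F x.2) (by simpa [c] using hq')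
        rw [Quotient.eq'', QuotientGroup.leftRel_apply, hE'mem]
        simpa using E.inv_mem hxE
    have hcardfix : Nat.card (Function.fixedPoints f) = 1 := by
      refine Nat.card_eq_one_iff_unique.mpr
        ⟨⟨fun p q => Subtype.ext ((hfix1 p.1 p.2).trans (hfix1 q.1 q.2).symm)⟩,
          ⟨⟨Quotient.mk'' 1, ?_⟩⟩⟩
      show f (Quotient.mk'' 1) = Quotient.mk'' 1
      show Quotient.mk'' (c 1) = Quotient.mk'' 1
      congr 1
      apply Subtype.ext
      simp [c]
    rw [Fintype.card_eq_nat_card, Fintype.card_eq_nat_card, hcardfix] at hmod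
    have hidx : Nat.card (↥P₀ ⧸ E') = E'.index := rfl
    have hmul : Nat.card E' * E'.index = Nat.card ↥P₀ := Subgroup.card_mul_index E'
    have hdvd : E'.index ∣ 2 ^ (Nat.card F).factorization 2 := by
      rw [← hP0card, ← hmul]; exact dvd_mul_left _ _
    obtain ⟨j, -, hj⟩ := (Nat.dvd_prime_pow Nat.prime_two).mp hdvd
    have hj0 : j = 0 := by
      by_contra hj0
      have h2 : 2 ∣ E'.index := by rw [hj]; exact dvd_pow_self 2 hj0
      rw [hidx] at hmod
      unfold Nat.ModEq at hmod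
      omega
    rw [hj0, pow_zero] at hj
    have htop : E' = ⊤ := Subgroup.index_eq_one.mp hj
    intro x hx
    have h5 : (⟨x, hx⟩ : ↥P₀) ∈ E' := by rw [htop]; exact Subgroup.mem_top _
    exact (hE'mem _).mp h5
  have hP04 : Nat.card P₀ = 4 := by
    have : P₀ = E := Subgroup.ext (fun x => ⟨hclaim x, fun h => hEP0 h⟩)
    rw [this]; exact hE4'
  refine ⟨hK3, P₀, hP0F, hP04, ?_, fun e he => hEel e (hclaim e he),
    fun f hf hff => hP0all f hf ⟨1, by rw [pow_one, pow_two]; exact hff⟩, hP0conj⟩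
  intro h8
  have h2 : (Nat.card F).factorization 2 = 2 := by
    have : 2 ^ (Nat.card F).factorization 2 = 2 ^ 2 := by rw [← hP0card, hP04]; rfl
    exact Nat.pow_right_injective le_rfl this
  have h3 : 3 ≤ (Nat.card F).factorization 2 :=
    (Nat.Prime.pow_dvd_iff_le_factorization Nat.prime_two (Nat.card_pos.ne')).mp
      (show 2 ^ 3 ∣ Nat.card F from h8)
  omega

end Cfsg.Agent.Lib.Helper84.LW
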